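import Mathlib
import Cfsg.Agent.Lib.Helper24.J2Ord.E2

set_option autoImplicit false

/-! # S3313 farm (helper24): pieces E7a E7b E8 in hypothesis form (helper63) -/

namespace Cfsg.Agent.Lib.Helper63.J2Ord

open Cfsg.Agent.Lib.Helper24.J2Ord

variable {H : Type*} [Group H] [Finite H] {Q K : Subgroup H} {z : H}

omit [Finite H] in
theorem orderOf_two_iff (x : H) : orderOf x = 2 ↔ x * x = 1 ∧ x ≠ 1 := by
  constructor
  · intro h
    refine ⟨?_, ?_⟩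
    · rw [← pow_two, ← h]; exact pow_orderOf_eq_one x
    · rintro rfl
      rw [orderOf_one] at h
      omega
  · rintro ⟨h1, h2⟩
    exact orderOf_eq_prime (by rw [pow_two]; exact h1) h2

omit [Finite H] in
theorem mem_zpowers_of_sq {g x : H} (hg : g * g = 1) (hx : x ∈ Subgroup.zpowers g) :
    x = 1 ∨ x = g := by
  obtain ⟨n, rfl⟩ := Subgroup.mem_zpowers_iff.1 hx
  have h2 : g ^ (2 : ℤ) = 1 := by
    rw [zpow_ofNat, pow_two]; exact hg
  rcases Int.even_or_odd' n with ⟨m, rfl | rfl⟩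
  · left
    rw [zpow_mul, h2, one_zpow]
  · right
    rw [zpow_add, zpow_mul, h2, one_zpow, one_mul, zpow_one]

omit [Finite H] in
/-- `b⁻¹ ∈ {b, bz}` -/
theorem inv_eq (c : Cfg H Q K z) {b : H} (hb : b ∈ Q) : b⁻¹ = b ∨ b⁻¹ = b * z := by
  rcases c.sq b hb with h | h
  · left
    exact inv_eq_of_mul_eq_one_right h
  · right
    apply inv_eq_of_mul_eq_one_right
    rw [← mul_assoc, h, c.z2]

omit [Finite H] in
/-- decomposition of an involution outside `Q`. -/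
theorem decomp_inv (c : Cfg H Q K z) (v : H) (hv : v ∉ Q) (hv2 : v * v = 1) :
    ∃ b ∈ Q, ∃ k ∈ K, v = b * k ∧ k * k = 1 ∧ k ≠ 1 ∧ k * b * k⁻¹ = b⁻¹ ∧ b ∈ D Q z k := by
  obtain ⟨b, hb, k, hk, rfl⟩ := c.KQ v
  have hk1 : k ≠ 1 := by
    rintro rfl
    exact hv (by rwa [mul_one])
  have e1 : (b * (k * b * k⁻¹)) * (k * k) = 1 := by
    calc (b * (k * b * k⁻¹)) * (k * k) = (b * k) * (b * k) := by group
      _ = 1 := hv2
  have hkk : k * k = 1 := by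
    apply c.KQ' _ (K.mul_mem hk hk)
    have : k * k = (b * (k * b * k⁻¹))⁻¹ := (inv_eq_of_mul_eq_one_right e1).symm
    rw [this]
    exact Q.inv_mem (Q.mul_mem hb (c.nQ k b hb))
  have hinv : k * b * k⁻¹ = b⁻¹ := by
    rw [hkk, mul_one] at e1
    exact (inv_eq_of_mul_eq_one_right e1).symm
  refine ⟨b, hb, k, hk, rfl, hkk, hk1, hinv, hb, ?_⟩
  rw [hinv]
  exact inv_eq c hb

/-- [E7b] in hypothesis form -/
theorem card_J_of (c : Cfg H Q K z)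
    (hD : ∀ k ∈ K, k * k = 1 → k ≠ 1 → (D Q z k).ncard = 8 ∧ ∀ b ∈ D Q z k, k * b * k⁻¹ = b⁻¹) :
    {v : H | v ∉ Q ∧ v * v = 1}.ncard = 120 := by
  classical
  have : Fintype H := Fintype.ofFinite H
  let f : (Σ k : {k : H // k ∈ K ∧ k * k = 1 ∧ k ≠ 1}, ↥(D Q z k.1)) →
      ↥{v : H | v ∉ Q ∧ v * v = 1} := fun s => ⟨s.2.1 * s.1.1, by
    obtain ⟨⟨k, hk, hkk, hk1⟩, ⟨b, hb⟩⟩ := s
    have hinv := (hD k hk hkk hk1).2 b hb
    refine ⟨fun h => hk1 (c.KQ' k hk ?_), ?_⟩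
    · have : k = b⁻¹ * (b * k) := by group
      rw [this]
      exact Q.mul_mem (Q.inv_mem hb.1) h
    · show b * k * (b * k) = 1
      calc b * k * (b * k) = b * (k * b * k⁻¹) * (k * k) := by group
        _ = 1 := by rw [hinv, hkk]; group⟩
  have hf : Function.Bijective f := by
    constructor
    · rintro ⟨⟨k, hk, hkk, hk1⟩, ⟨b, hb⟩⟩ ⟨⟨k', hk', hkk', hk1'⟩, ⟨b', hb'⟩⟩ h
      have h1 : b * k = b' * k' := congrArg Subtype.val h
      have h2 : k' * k⁻¹ = b'⁻¹ * b := by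
        calc k' * k⁻¹ = b'⁻¹ * (b' * k') * k⁻¹ := by group
          _ = b'⁻¹ * b := by rw [← h1]; group
      have h3 : k' * k⁻¹ = 1 := by
        apply c.KQ' _ (K.mul_mem hk' (K.inv_mem hk))
        rw [h2]
        exact Q.mul_mem (Q.inv_mem hb'.1) hb.1
      have h4 : k' = k := mul_inv_eq_one.1 h3
      subst h4
      have h5 : b = b' := mul_right_cancel h1
      subst h5
      rfl
    · rintro ⟨v, hv, hv2⟩
      obtain ⟨b, hb, k, hk, rfl, hkk, hk1, -, hbD⟩ := decomp_inv c v hv hv2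
      exact ⟨⟨⟨k, hk, hkk, hk1⟩, ⟨b, hbD⟩⟩, rfl⟩
  rw [← Nat.card_coe_set_eq, ← Nat.card_congr (Equiv.ofBijective f hf), Nat.card_sigma]
  have h8 : ∀ k : {k : H // k ∈ K ∧ k * k = 1 ∧ k ≠ 1}, Nat.card ↥(D Q z k.1) = 8 := by
    intro k
    rw [Nat.card_coe_set_eq]
    exact (hD k.1 k.2.1 k.2.2.1 k.2.2.2).1
  simp only [h8]
  rw [Finset.sum_const, Finset.card_univ, ← Nat.card_eq_fintype_card, c.K15]
  rfl

/-- [E8] in hypothesis form -/
theorem count_z_of (c : Cfg H Q K z)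
    (hv : ∀ v : H, v ∉ Q → v * v = 1 →
      {u : H | u ∈ Q ∧ orderOf u = 2 ∧ z ∈ Subgroup.zpowers (u * v)}.ncard = 8)
    (hJ : {v : H | v ∉ Q ∧ v * v = 1}.ncard = 120) :
    Nat.card {p : H × H // p.1 ∈ Q ∧ orderOf p.1 = 2 ∧ p.2 ∉ Q ∧ orderOf p.2 = 2 ∧
      z ∈ Subgroup.zpowers (p.1 * p.2)} = 960 := by
  classical
  have : Fintype H := Fintype.ofFinite H
  let e : {p : H × H // p.1 ∈ Q ∧ orderOf p.1 = 2 ∧ p.2 ∉ Q ∧ orderOf p.2 = 2 ∧
      z ∈ Subgroup.zpowers (p.1 * p.2)} ≃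
      (Σ v : ↥{v : H | v ∉ Q ∧ v * v = 1},
        ↥{u : H | u ∈ Q ∧ orderOf u = 2 ∧ z ∈ Subgroup.zpowers (u * v.1)}) :=
    { toFun := fun p => ⟨⟨p.1.2, p.2.2.2.1, ((orderOf_two_iff _).1 p.2.2.2.2.1).1⟩,
        ⟨p.1.1, p.2.1, p.2.2.1, p.2.2.2.2.2⟩⟩
      invFun := fun s => ⟨(s.2.1, s.1.1), s.2.2.1, s.2.2.2.1, s.1.2.1,
        (orderOf_two_iff _).2 ⟨s.1.2.2, fun h => s.1.2.1 (by
          have h' : s.1.1 = 1 := h
          rw [h']; exact Q.one_mem)⟩,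
        s.2.2.2.2⟩
      left_inv := fun p => rfl
      right_inv := fun s => rfl }
  rw [Nat.card_congr e, Nat.card_sigma]
  have h8 : ∀ v : ↥{v : H | v ∉ Q ∧ v * v = 1},
      Nat.card ↥{u : H | u ∈ Q ∧ orderOf u = 2 ∧ z ∈ Subgroup.zpowers (u * v.1)} = 8 := by
    intro v
    rw [Nat.card_coe_set_eq]
    exact hv v.1 v.2.1 v.2.2
  simp only [h8]
  rw [Finset.sum_const, Finset.card_univ, ← Nat.card_eq_fintype_card, Nat.card_coe_set_eq, hJ]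
  rfl

end Cfsg.Agent.Lib.Helper63.J2Ord
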