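import Mathlib
import Cfsg.Agent.Lib.Helper63.J2Ord.Core

set_option autoImplicit false

/-! # S3313 farm (helper24): piece E7a in hypothesis form (helper63) -/

namespace Cfsg.Agent.Lib.Helper63.J2Ord

open Cfsg.Agent.Lib.Helper24.J2Ord

variable {H : Type*} [Group H] [Finite H] {Q K : Subgroup H} {z : H}

theorem card_I (c : Cfg H Q K z) : (I Q z).ncard = 10 := by
  have hT := card_T12 c
  have hU : T Q = I Q z ∪ {1, z} := by
    ext a
    simp only [T, I, Set.mem_ofPred_eq, Set.mem_union, Set.mem_insert_iff, Set.mem_singleton_iff]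
    constructor
    · rintro ⟨h1, h2⟩
      by_cases ha1 : a = 1
      · right; left; exact ha1
      by_cases haz : a = z
      · right; right; exact haz
      · left; exact ⟨h1, h2, ha1, haz⟩
    · rintro (⟨h1, h2, -, -⟩ | rfl | rfl)
      · exact ⟨h1, h2⟩
      · exact ⟨Q.one_mem, one_mul 1⟩
      · exact ⟨c.zQ, c.z2⟩
  have hdisj : Disjoint (I Q z) {1, z} := by
    rw [Set.disjoint_left]
    rintro a ⟨-, -, h1, h2⟩ (rfl | rfl)
    · exact h1 rfl
    · exact h2 rfl
  rw [hU, Set.ncard_union_eq hdisj (Set.toFinite _) (Set.toFinite _),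
    Set.ncard_pair (Ne.symm c.z1)] at hT
  omega

/-- [E7a] in hypothesis form -/
theorem count_v_of (c : Cfg H Q K z)
    (hE4 : ∀ a ∈ I Q z, ∀ b ∈ I Q z, a * b = b * a → b = a ∨ b = a * z)
    (hE5 : ∀ k ∈ K, k * k = 1 → k ≠ 1 → (I Q z ∩ D Q z k).ncard = 2 ∧
      ∀ a ∈ D Q z k, ∀ b ∈ D Q z k, a * b = b * a)
    (hD : ∀ k ∈ K, k * k = 1 → k ≠ 1 → ∀ b ∈ D Q z k, k * b * k⁻¹ = b⁻¹)
    (v : H) (hv : v ∉ Q) (hv2 : v * v = 1) :
    {u : H | u ∈ Q ∧ orderOf u = 2 ∧ z ∈ Subgroup.zpowers (u * v)}.ncard = 8 := by
  obtain ⟨b, hb, k, hk, rfl, hkk, hk1, hbinv, hbD⟩ := decomp_inv c v hv hv2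
  have hset : {u : H | u ∈ Q ∧ orderOf u = 2 ∧ z ∈ Subgroup.zpowers (u * (b * k))}
      = I Q z \ D Q z k := by
    ext u
    simp only [Set.mem_ofPred_eq, Set.mem_sdiff]
    constructor
    · rintro ⟨huQ, hu2, hz⟩
      obtain ⟨huu, hu1⟩ := (orderOf_two_iff u).1 hu2
      have huz : u ≠ z := by
        rintro rfl
        have h1 : u * (b * k) * (u * (b * k)) = 1 := by
          calc u * (b * k) * (u * (b * k)) = u * ((b * k) * u) * (b * k) := by group
            _ = u * (u * (b * k)) * (b * k) := by rw [c.zc (b * k)]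
            _ = (u * u) * ((b * k) * (b * k)) := by group
            _ = 1 := by rw [huu, hv2, one_mul]
        rcases mem_zpowers_of_sq h1 hz with h | h
        · exact hu1 h
        · apply hv
          have : b * k = 1 := by
            have h' : u * 1 = u * (b * k) := by rw [mul_one]; exact h
            exact (mul_left_cancel h').symm
          rw [this]; exact Q.one_mem
      refine ⟨⟨huQ, huu, hu1, huz⟩, fun huD => ?_⟩
      -- `u` commutes with `v`
      have h1 : k * u * k⁻¹ = u := by
        rw [hD k hk hkk hk1 u huD]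
        exact inv_eq_of_mul_eq_one_right huu
      have h2 : b * u = u * b := (hE5 k hk hkk hk1).2 b hbD u huD
      have h3 : (b * k) * u = u * (b * k) := by
        calc (b * k) * u = b * (k * u * k⁻¹) * k := by group
          _ = (b * u) * k := by rw [h1]
          _ = u * (b * k) := by rw [h2]; group
      have h4 : u * (b * k) * (u * (b * k)) = 1 := by
        calc u * (b * k) * (u * (b * k)) = u * ((b * k) * u) * (b * k) := by group
          _ = u * (u * (b * k)) * (b * k) := by rw [h3]
          _ = (u * u) * ((b * k) * (b * k)) := by group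
          _ = 1 := by rw [huu, hv2, one_mul]
      rcases mem_zpowers_of_sq h4 hz with h | h
      · exact c.z1 h
      · apply hv
        have : b * k = u⁻¹ * z := by rw [h]; group
        rw [this]
        exact Q.mul_mem (Q.inv_mem huQ) c.zQ
    · rintro ⟨⟨huQ, huu, hu1, huz⟩, huD⟩
      refine ⟨huQ, (orderOf_two_iff u).2 ⟨huu, hu1⟩, ?_⟩
      set v := b * k with hvdef
      set u' := v * u * v⁻¹ with hu'
      have hu'Q : u' ∈ Q := c.nQ v u huQ
      have hu'I : u' ∈ I Q z := by
        refine ⟨hu'Q, ?_, ?_, ?_⟩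
        · calc u' * u' = v * (u * u) * v⁻¹ := by rw [hu']; group
            _ = 1 := by rw [huu]; group
        · intro h
          apply hu1
          have : u = v⁻¹ * u' * v := by rw [hu']; group
          rw [this, h]; group
        · intro h
          apply huz
          have : u = v⁻¹ * u' * v := by rw [hu']; group
          rw [this, h, mul_assoc, ← c.zc v]; group
      -- `u'` is not in `{u, uz}`
      have hne : ¬ (u' = u ∨ u' = u * z) := by
        intro h
        apply huD
        refine ⟨huQ, ?_⟩
        set w := k * u * k⁻¹ with hw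
        have hwQ : w ∈ Q := c.nQ k u huQ
        have hu'w : u' = b * w * b⁻¹ := by rw [hu', hw, hvdef]; group
        rcases c.comm b hb w hwQ with h1 | h1
        · have : u' = w := by rw [hu'w, h1]; group
          rw [← this]; exact h
        · have h2 : u' = w * z := by
            rw [hu'w, h1, mul_assoc, mul_assoc, c.zc b⁻¹ |>.symm]; group
          have h3 : w = u' * z := by rw [h2, mul_assoc, c.z2, mul_one]
          rcases h with h | h
          · right; rw [h3, h]
          · left; rw [h3, h, mul_assoc, c.z2, mul_one]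
      have hnc : u * u' ≠ u' * u := fun h => hne (hE4 u ⟨huQ, huu, hu1, huz⟩ u' hu'I h)
      have hcz : u * u' = u' * u * z := (c.comm u huQ u' hu'Q).resolve_left hnc
      have hu'u' : u' * u' = 1 := hu'I.2.1
      have hsq : (u * v) * (u * v) = u * u' := by
        calc (u * v) * (u * v) = u * (v * u * v⁻¹) * (v * v) := by group
          _ = u * u' := by rw [hv2, mul_one]
      have h4 : (u * v) ^ 4 = z := by
        calc (u * v) ^ 4 = ((u * v) * (u * v)) * ((u * v) * (u * v)) := by
              simp only [pow_succ, pow_zero, one_mul, mul_assoc]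
          _ = (u * u') * (u * u') := by rw [hsq]
          _ = (u' * u * z) * (u * u') := by rw [← hcz]
          _ = u' * u * (z * u) * u' := by group
          _ = u' * u * (u * z) * u' := by rw [c.zc u]
          _ = u' * (u * u) * (z * u') := by group
          _ = u' * (u * u) * (u' * z) := by rw [c.zc u']
          _ = z := by rw [huu, mul_one, ← mul_assoc, hu'u', one_mul]
      rw [← h4]
      exact Subgroup.pow_mem _ (Subgroup.mem_zpowers _) 4
  rw [hset]
  have h1 := Set.ncard_inter_add_ncard_sdiff_eq_ncard (I Q z) (D Q z k) (Set.toFinite _)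
  rw [(hE5 k hk hkk hk1).1, card_I c] at h1
  omega

end Cfsg.Agent.Lib.Helper63.J2Ord
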