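import Mathlib
import Cfsg.Agent.Lib.Helper63.J2Ord.Core

set_option autoImplicit false

/-! # S3313 farm (helper24): piece E6b in hypothesis form (helper63) -/

namespace Cfsg.Agent.Lib.Helper63.J2Ord

open Cfsg.Agent.Lib.Helper24.J2Ord

variable {H : Type*} [Group H] {Q K : Subgroup H} {z : H}

/-- `D Q z h` as a subgroup -/
def DS (c : Cfg H Q K z) (h : H) : Subgroup H where
  carrier := D Q z h
  one_mem' := ⟨Q.one_mem, Or.inl (by group)⟩
  mul_mem' := by
    rintro a b ⟨ha, ha'⟩ ⟨hb, hb'⟩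
    refine ⟨Q.mul_mem ha hb, ?_⟩
    have e : h * (a * b) * h⁻¹ = (h * a * h⁻¹) * (h * b * h⁻¹) := by group
    rw [e]
    rcases ha' with ha' | ha' <;> rcases hb' with hb' | hb' <;> rw [ha', hb']
    · left; rfl
    · right; group
    · right
      calc a * z * b = a * (z * b) := by group
        _ = a * (b * z) := by rw [c.zc b]
        _ = a * b * z := by group
    · left
      calc a * z * (b * z) = a * (z * b) * z := by group
        _ = a * (b * z) * z := by rw [c.zc b]
        _ = a * b * (z * z) := by group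
        _ = a * b := by rw [c.z2, mul_one]
  inv_mem' := by
    rintro a ⟨ha, ha'⟩
    refine ⟨Q.inv_mem ha, ?_⟩
    have e : h * a⁻¹ * h⁻¹ = (h * a * h⁻¹)⁻¹ := by group
    have hz : z⁻¹ = z := inv_eq_of_mul_eq_one_right c.z2
    rw [e]
    rcases ha' with ha' | ha' <;> rw [ha']
    · left; rfl
    · right
      rw [mul_inv_rev, hz, c.zc a⁻¹]

theorem coe_DS (c : Cfg H Q K z) (h : H) : ((DS c h : Subgroup H) : Set H) = D Q z h := rfl

theorem DS_le (c : Cfg H Q K z) (h : H) : DS c h ≤ Q := fun _ hb => hb.1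

theorem card_DS (c : Cfg H Q K z) (h : H) : Nat.card (DS c h) = (D Q z h).ncard := rfl

variable [Finite H]

/-- [E6b] in hypothesis form -/
theorem D_le_of (c : Cfg H Q K z) (hge : ∀ k : H, k * k = 1 → 8 ≤ (D Q z k).ncard)
    (k : H) (hkK : k ∈ K) (hk : k * k = 1) (hk1 : k ≠ 1) :
    (D Q z k).ncard ≤ 8 := by
  obtain ⟨k', hk'K, hk', hk'1, hord⟩ := c.K5 k hkK hk hk1
  have hgQ : k * k' ∉ Q := by
    intro h
    have h1 := c.KQ' _ (K.mul_mem hkK hk'K) h
    rw [h1, orderOf_one] at hord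
    omega
  set A := DS c k with hA
  set B := DS c k' with hB
  have hint : ∀ b ∈ A ⊓ B, b = 1 ∨ b = z := by
    rintro b ⟨⟨hbQ, h1⟩, ⟨-, h2⟩⟩
    apply fix5 c (k * k') hord hgQ b hbQ
    have e : k * k' * b * (k * k')⁻¹ = k * (k' * b * k'⁻¹) * k⁻¹ := by group
    rw [e]
    have ez : k * (b * z) * k⁻¹ = (k * b * k⁻¹) * z := by
      calc k * (b * z) * k⁻¹ = k * b * (z * k⁻¹) := by group
        _ = k * b * (k⁻¹ * z) := by rw [c.zc k⁻¹]
        _ = (k * b * k⁻¹) * z := by group
    rcases h2 with h2 | h2 <;> rcases h1 with h1 | h1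
    · left; rw [h2, h1]
    · right; rw [h2, h1]
    · right; rw [h2, ez, h1]
    · left; rw [h2, ez, h1, mul_assoc, c.z2, mul_one]
  have hcint : Nat.card (A ⊓ B : Subgroup H) ≤ 2 := by
    have hsub : ((A ⊓ B : Subgroup H) : Set H) ⊆ {1, z} := by
      intro b hb
      rcases hint b hb with h | h
      · left; exact h
      · right; exact h
    have h1 := Set.ncard_le_ncard hsub (Set.toFinite _)
    have h2 : ({1, z} : Set H).ncard ≤ 2 := Set.ncard_insert_le 1 {z} |>.trans (by simp)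
    exact h1.trans h2
  have h1 := Subgroup.relIndex_mul_relIndex ⊥ (A ⊓ B) A bot_le inf_le_left
  have h2 := Subgroup.relIndex_mul_relIndex ⊥ B Q bot_le (DS_le c k')
  rw [Subgroup.relIndex_bot_left, Subgroup.relIndex_bot_left, Subgroup.inf_relIndex_left] at h1
  rw [Subgroup.relIndex_bot_left, Subgroup.relIndex_bot_left, c.cardQ] at h2
  have h3 : B.relIndex A ≤ B.relIndex Q := by
    apply Subgroup.relIndex_le_of_le_right (DS_le c k)
    intro h0
    rw [h0, mul_zero] at h2
    omega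
  have h4 : 8 ≤ Nat.card B := hge k' hk'
  have h5 : B.relIndex Q ≤ 4 := by
    by_contra hcon
    push Not at hcon
    have : 8 * 5 ≤ Nat.card B * B.relIndex Q := Nat.mul_le_mul h4 hcon
    omega
  have h6 : Nat.card A ≤ 2 * 4 := by
    rw [← h1]
    exact Nat.mul_le_mul hcint (h3.trans h5)
  exact h6

end Cfsg.Agent.Lib.Helper63.J2Ord
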