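import Mathlib
import Cfsg.Agent.Lib.Helper63.J2Ord.E6bCore

set_option autoImplicit false

/-! # S3313 farm (helper24): piece E5 in hypothesis form (helper63) -/

namespace Cfsg.Agent.Lib.Helper63.J2Ord

open Cfsg.Agent.Lib.Helper24.J2Ord

variable {H : Type*} [Group H] [Finite H] {Q K : Subgroup H} {z : H}

/-- [E5] in hypothesis form -/
theorem card_I_D_of (c : Cfg H Q K z)
    (hE4 : ∀ a ∈ I Q z, ∀ b ∈ I Q z, a * b = b * a → b = a ∨ b = a * z)
    (k : H) (hD8 : (D Q z k).ncard = 8) (hinv : ∀ b ∈ D Q z k, k * b * k⁻¹ = b⁻¹) :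
    (I Q z ∩ D Q z k).ncard = 2 ∧ ∀ a ∈ D Q z k, ∀ b ∈ D Q z k, a * b = b * a := by
  have hab : ∀ a ∈ D Q z k, ∀ b ∈ D Q z k, a * b = b * a := by
    intro a ha b hb
    have h1 := hinv (a * b) ((DS c k).mul_mem ha hb)
    have e : k * (a * b) * k⁻¹ = (k * a * k⁻¹) * (k * b * k⁻¹) := by group
    rw [e, hinv a ha, hinv b hb, ← mul_inv_rev] at h1
    exact (inv_injective h1).symm
  refine ⟨?_, hab⟩
  set S : Set H := {a | a ∈ D Q z k ∧ a * a = 1} with hS
  have h1D : (1 : H) ∈ D Q z k := (DS c k).one_mem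
  have hzD : z ∈ D Q z k := ⟨c.zQ, Or.inl (by rw [c.zc k]; group)⟩
  have hSU : S = (I Q z ∩ D Q z k) ∪ {1, z} := by
    ext a
    simp only [hS, I, Set.mem_ofPred_eq, Set.mem_union, Set.mem_inter_iff, Set.mem_insert_iff,
      Set.mem_singleton_iff]
    constructor
    · rintro ⟨h1, h2⟩
      by_cases ha1 : a = 1
      · right; left; exact ha1
      by_cases haz : a = z
      · right; right; exact haz
      · left; exact ⟨⟨h1.1, h2, ha1, haz⟩, h1⟩
    · rintro (⟨⟨-, h2, -, -⟩, h1⟩ | rfl | rfl)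
      · exact ⟨h1, h2⟩
      · exact ⟨h1D, one_mul 1⟩
      · exact ⟨hzD, c.z2⟩
  have hdisj : Disjoint (I Q z ∩ D Q z k) {1, z} := by
    rw [Set.disjoint_left]
    rintro a ⟨⟨-, -, h1, h2⟩, -⟩ (rfl | rfl)
    · exact h1 rfl
    · exact h2 rfl
  have hScard : S.ncard = (I Q z ∩ D Q z k).ncard + 2 := by
    rw [hSU, Set.ncard_union_eq hdisj (Set.toFinite _) (Set.toFinite _),
      Set.ncard_pair (Ne.symm c.z1)]
  -- upper bound
  have hle : (I Q z ∩ D Q z k).ncard ≤ 2 := by
    by_cases hne : (I Q z ∩ D Q z k).Nonempty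
    · obtain ⟨a, haI, haD⟩ := hne
      have hsub : I Q z ∩ D Q z k ⊆ {a, a * z} := by
        rintro b ⟨hbI, hbD⟩
        rcases hE4 a haI b hbI (hab a haD b hbD) with h | h
        · left; exact h
        · right; exact h
      exact (Set.ncard_le_ncard hsub (Set.toFinite _)).trans
        ((Set.ncard_insert_le a {a * z}).trans (by simp))
    · rw [Set.not_nonempty_iff_eq_empty] at hne
      rw [hne]; simp
  -- lower bound
  have hge : 4 ≤ S.ncard := by
    have hsplit := Set.ncard_inter_add_ncard_sdiff_eq_ncard (D Q z k) S (Set.toFinite _)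
    have hinter : D Q z k ∩ S = S := by
      ext a
      constructor
      · exact fun h => h.2
      · exact fun h => ⟨h.1, h⟩
    rw [hinter, hD8] at hsplit
    by_cases hne : (D Q z k \ S).Nonempty
    · obtain ⟨a₀, ha₀D, ha₀S⟩ := hne
      have hsq : ∀ x ∈ D Q z k \ S, x * x = z := by
        rintro x ⟨hxD, hxS⟩
        rcases c.sq x hxD.1 with h | h
        · exact absurd ⟨hxD, h⟩ hxS
        · exact h
      have hle2 : (D Q z k \ S).ncard ≤ S.ncard := by
        apply Set.ncard_le_ncard_of_injOn (fun x => x * a₀⁻¹) _ _ (Set.toFinite _)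
        · intro x hx
          have hxD : x ∈ D Q z k := hx.1
          have ha₀i : a₀⁻¹ ∈ D Q z k := (DS c k).inv_mem ha₀D
          refine ⟨(DS c k).mul_mem hxD ha₀i, ?_⟩
          calc x * a₀⁻¹ * (x * a₀⁻¹) = x * (a₀⁻¹ * x) * a₀⁻¹ := by group
            _ = x * (x * a₀⁻¹) * a₀⁻¹ := by rw [hab a₀⁻¹ ha₀i x hxD]
            _ = (x * x) * (a₀ * a₀)⁻¹ := by group
            _ = 1 := by rw [hsq x hx, hsq a₀ ⟨ha₀D, ha₀S⟩, mul_inv_cancel]
        · intro x _ y _ hxy
          exact mul_right_cancel hxy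
      omega
    · rw [Set.not_nonempty_iff_eq_empty] at hne
      rw [hne, Set.ncard_empty] at hsplit
      omega
  omega

end Cfsg.Agent.Lib.Helper63.J2Ord
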