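import Mathlib
import Cfsg.Agent.Lib.Helper63.J2Ord.E6bCore

set_option autoImplicit false

/-! # S3313 farm (helper24): piece E6a (helper63) -/

namespace Cfsg.Agent.Lib.Helper63.J2Ord

open Cfsg.Agent.Lib.Helper24.J2Ord

variable {H : Type*} [Group H] [Finite H] {Q K : Subgroup H} {z : H}

omit [Finite H] in
theorem cx_inv {k : H} (hk : k * k = 1) (x : H) :
    k * (x⁻¹ * k * x * k⁻¹) * k⁻¹ = (x⁻¹ * k * x * k⁻¹)⁻¹ := by
  have hkinv : k⁻¹ = k := inv_eq_of_mul_eq_one_right hk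
  have hk' : ∀ y, k * (k * y) = y := fun y => by rw [← mul_assoc, hk, one_mul]
  rw [hkinv]
  apply eq_inv_of_mul_eq_one_left
  simp only [mul_assoc, hk', hk, mul_one, mul_inv_cancel_left, inv_mul_cancel_left]

/-- [E6a] -/
theorem D_ge (c : Cfg H Q K z) (k : H) (hk : k * k = 1) :
    8 ≤ (D Q z k).ncard ∧ ((D Q z k).ncard = 8 → ∀ b ∈ D Q z k, k * b * k⁻¹ = b⁻¹) := by
  classical
  have : Fintype H := Fintype.ofFinite H
  have hzinv : z⁻¹ = z := inv_eq_of_mul_eq_one_right c.z2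
  set Inv : Set H := {b | b ∈ Q ∧ k * b * k⁻¹ = b⁻¹} with hInv
  have hInvD : Inv ⊆ D Q z k := by
    rintro b ⟨hb, h⟩
    exact ⟨hb, by rw [h]; exact inv_eq c hb⟩
  let f : H × H → H := fun p => p.1⁻¹ * k * p.1 * k⁻¹ * p.2
  let s : Finset (H × H) := (Q : Set H).toFinset ×ˢ {1, z}
  have hs : s.card = 64 := by
    have h1 : (Q : Set H).toFinset.card = 32 := by
      rw [← Set.ncard_eq_toFinset_card']
      exact c.cardQ
    rw [Finset.card_product, Finset.card_pair (Ne.symm c.z1), h1]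
  have hmem : ∀ p ∈ s, p.1 ∈ Q ∧ (p.2 = 1 ∨ p.2 = z) := by
    intro p hp
    rw [Finset.mem_product] at hp
    refine ⟨by simpa using hp.1, by simpa using hp.2⟩
  have himg : s.image f ⊆ Inv.toFinset := by
    intro a ha
    obtain ⟨p, hp, rfl⟩ := Finset.mem_image.1 ha
    obtain ⟨hx, he⟩ := hmem p hp
    rw [Set.mem_toFinset]
    have hcQ : p.1⁻¹ * k * p.1 * k⁻¹ ∈ Q := by
      have : p.1⁻¹ * k * p.1 * k⁻¹ = p.1⁻¹ * (k * p.1 * k⁻¹) := by group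
      rw [this]
      exact Q.mul_mem (Q.inv_mem hx) (c.nQ k _ hx)
    rcases he with he | he
    · refine ⟨?_, ?_⟩
      · show p.1⁻¹ * k * p.1 * k⁻¹ * p.2 ∈ Q
        rw [he, mul_one]; exact hcQ
      · show k * (p.1⁻¹ * k * p.1 * k⁻¹ * p.2) * k⁻¹ = (p.1⁻¹ * k * p.1 * k⁻¹ * p.2)⁻¹
        rw [he, mul_one]; exact cx_inv hk _
    · refine ⟨?_, ?_⟩
      · show p.1⁻¹ * k * p.1 * k⁻¹ * p.2 ∈ Q
        rw [he]; exact Q.mul_mem hcQ c.zQ
      · show k * (p.1⁻¹ * k * p.1 * k⁻¹ * p.2) * k⁻¹ = (p.1⁻¹ * k * p.1 * k⁻¹ * p.2)⁻¹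
        rw [he, mul_inv_rev, hzinv, ← cx_inv hk, ← c.zc]
        calc k * (p.1⁻¹ * k * p.1 * k⁻¹ * z) * k⁻¹
            = k * (p.1⁻¹ * k * p.1 * k⁻¹) * (z * k⁻¹) := by group
          _ = k * (p.1⁻¹ * k * p.1 * k⁻¹) * (k⁻¹ * z) := by rw [c.zc k⁻¹]
          _ = k * (p.1⁻¹ * k * p.1 * k⁻¹) * k⁻¹ * z := by group
  have hfib : ∀ a ∈ s.image f, (s.filter fun p => f p = a).card ≤ (D Q z k).toFinset.card := by
    intro a ha
    obtain ⟨p₀, hp₀, rfl⟩ := Finset.mem_image.1 ha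
    obtain ⟨hx₀, he₀⟩ := hmem p₀ hp₀
    apply Finset.card_le_card_of_injOn (fun p => p.1 * p₀.1⁻¹)
    · intro p hp
      rw [Finset.coe_filter] at hp
      obtain ⟨hps, hpf⟩ := hp
      obtain ⟨hx, he⟩ := hmem p hps
      rw [Finset.mem_coe, Set.mem_toFinset]
      refine ⟨Q.mul_mem hx (Q.inv_mem hx₀), ?_⟩
      have hpf' : p.1⁻¹ * k * p.1 * k⁻¹ * p.2 = p₀.1⁻¹ * k * p₀.1 * k⁻¹ * p₀.2 := hpf
      -- `k (x x₀⁻¹) k⁻¹ = x x₀⁻¹ (e₀ e⁻¹)`
      have hcen : ∀ e : H, (e = 1 ∨ e = z) → ∀ h : H, h * e = e * h := by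
        rintro e (rfl | rfl) h
        · rw [mul_one, one_mul]
        · exact c.zc h
      have key : k * (p.1 * p₀.1⁻¹) * k⁻¹ = p.1 * p₀.1⁻¹ * (p₀.2 * p.2⁻¹) := by
        have h1 : k * p.1 * k⁻¹ = p.1 * (p₀.1⁻¹ * k * p₀.1 * k⁻¹ * p₀.2) * p.2⁻¹ := by
          rw [← hpf']; group
        have h2 : k * (p.1 * p₀.1⁻¹) * k⁻¹ = (k * p.1 * k⁻¹) * (k * p₀.1 * k⁻¹)⁻¹ := by group
        rw [h2, h1]
        calc p.1 * (p₀.1⁻¹ * k * p₀.1 * k⁻¹ * p₀.2) * p.2⁻¹ * (k * p₀.1 * k⁻¹)⁻¹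
            = p.1 * p₀.1⁻¹ * (k * p₀.1 * k⁻¹) * (p₀.2 * p.2⁻¹ * (k * p₀.1 * k⁻¹)⁻¹) := by group
          _ = p.1 * p₀.1⁻¹ * (k * p₀.1 * k⁻¹) * ((k * p₀.1 * k⁻¹)⁻¹ * (p₀.2 * p.2⁻¹)) := by
              congr 1
              have hc2 : ∀ h : H, h * p.2⁻¹ = p.2⁻¹ * h := by
                intro h
                have := hcen p.2 he h
                calc h * p.2⁻¹ = p.2⁻¹ * (p.2 * h) * p.2⁻¹ := by group
                  _ = p.2⁻¹ * (h * p.2) * p.2⁻¹ := by rw [this]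
                  _ = p.2⁻¹ * h := by group
              rw [mul_assoc, ← hc2, ← mul_assoc, ← hcen p₀.2 he₀, mul_assoc]
          _ = p.1 * p₀.1⁻¹ * (p₀.2 * p.2⁻¹) := by group
      rw [key]
      rcases he₀ with h0 | h0 <;> rcases he with h1 | h1 <;> rw [h0, h1]
      · left; group
      · right; rw [hzinv, one_mul]
      · right; rw [inv_one, mul_one]
      · left; rw [mul_inv_cancel, mul_one]
    · intro p hp p' hp' hpp
      rw [Finset.coe_filter] at hp hp'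
      have h1 : p.1 = p'.1 := mul_right_cancel hpp
      have h2 : p.1⁻¹ * k * p.1 * k⁻¹ * p.2 = p'.1⁻¹ * k * p'.1 * k⁻¹ * p'.2 :=
        hp.2.trans hp'.2.symm
      rw [← h1] at h2
      exact Prod.ext h1 (mul_left_cancel h2)
  have h64 := Finset.card_le_mul_card_image s _ hfib
  rw [hs] at h64
  have hI : (s.image f).card ≤ Inv.ncard := by
    rw [Set.ncard_eq_toFinset_card']
    exact Finset.card_le_card himg
  have hID : Inv.ncard ≤ (D Q z k).ncard := Set.ncard_le_ncard hInvD (Set.toFinite _)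
  rw [← Set.ncard_eq_toFinset_card'] at h64
  have h64' : 64 ≤ (D Q z k).ncard * Inv.ncard := h64.trans (Nat.mul_le_mul_left _ hI)
  refine ⟨?_, ?_⟩
  · by_contra hcon
    push Not at hcon
    have : (D Q z k).ncard * Inv.ncard ≤ 7 * 7 := Nat.mul_le_mul (by omega) (by omega)
    omega
  · intro h8 b hb
    rw [h8] at h64'
    have h9 : (D Q z k).ncard ≤ Inv.ncard := by omega
    have heq : Inv = D Q z k := Set.eq_of_subset_of_ncard_le hInvD h9 (Set.toFinite _)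
    rw [← heq] at hb
    exact hb.2

end Cfsg.Agent.Lib.Helper63.J2Ord
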