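import Mathlib
import Cfsg.Agent.Lib.Helper63.J2Ord.E6a

set_option autoImplicit false

/-! # S3313 farm (helper24): pieces E6b, E7b (helper63) -/

namespace Cfsg.Agent.Lib.Helper63.J2Ord

open Cfsg.Agent.Lib.Helper24.J2Ord

variable {H : Type*} [Group H] [Finite H] {Q K : Subgroup H} {z : H}

/-- [E6b] -/
theorem D_le (c : Cfg H Q K z) (k : H) (hkK : k ∈ K) (hk : k * k = 1) (hk1 : k ≠ 1) :
    (D Q z k).ncard ≤ 8 :=
  D_le_of c (fun k hk => (D_ge c k hk).1) k hkK hk hk1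

theorem D_eq (c : Cfg H Q K z) (k : H) (hkK : k ∈ K) (hk : k * k = 1) (hk1 : k ≠ 1) :
    (D Q z k).ncard = 8 :=
  le_antisymm (D_le c k hkK hk hk1) (D_ge c k hk).1

theorem D_inv (c : Cfg H Q K z) (k : H) (hkK : k ∈ K) (hk : k * k = 1) (hk1 : k ≠ 1) :
    ∀ b ∈ D Q z k, k * b * k⁻¹ = b⁻¹ :=
  (D_ge c k hk).2 (D_eq c k hkK hk hk1)

/-- [E7b] -/
theorem card_J (c : Cfg H Q K z) : {v : H | v ∉ Q ∧ v * v = 1}.ncard = 120 :=
  card_J_of c (fun k hkK hk hk1 => ⟨D_eq c k hkK hk hk1, D_inv c k hkK hk hk1⟩)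

end Cfsg.Agent.Lib.Helper63.J2Ord
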