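import Mathlib
import Cfsg.Agent.Lib.Helper63.J2Ord.E6b
import Cfsg.Agent.Lib.Helper63.J2Ord.E5Core
import Cfsg.Agent.Lib.Helper63.J2Ord.Core2
import Cfsg.Agent.Lib.Helper54.J2Ord.E4

set_option autoImplicit false

/-! # S3313 farm (helper24): pieces E7a, E8 (helper63) -/

namespace Cfsg.Agent.Lib.Helper63.J2Ord

open Cfsg.Agent.Lib.Helper24.J2Ord

variable {H : Type*} [Group H] [Finite H] {Q K : Subgroup H} {z : H}

/-- [E7a] -/
theorem count_v (c : Cfg H Q K z) (v : H) (hv : v ∉ Q) (hv2 : v * v = 1) :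
    {u : H | u ∈ Q ∧ orderOf u = 2 ∧ z ∈ Subgroup.zpowers (u * v)}.ncard = 8 :=
  count_v_of c (Cfsg.Agent.Lib.Helper54.J2Ord.comm_I c)
    (fun k hkK hk hk1 => card_I_D_of c (Cfsg.Agent.Lib.Helper54.J2Ord.comm_I c) k
      (D_eq c k hkK hk hk1) (D_inv c k hkK hk hk1))
    (fun k hkK hk hk1 => D_inv c k hkK hk hk1) v hv hv2

/-- [E8] -/
theorem count_z (c : Cfg H Q K z) :
    Nat.card {p : H × H // p.1 ∈ Q ∧ orderOf p.1 = 2 ∧ p.2 ∉ Q ∧ orderOf p.2 = 2 ∧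
      z ∈ Subgroup.zpowers (p.1 * p.2)} = 960 :=
  count_z_of c (count_v c) (card_J c)

end Cfsg.Agent.Lib.Helper63.J2Ord
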